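import Mathlib
import Cfsg.Agent.H15.Hom
import Cfsg.Agent.H15.Simple
import Cfsg.Agent.H15.Cover
set_option autoImplicit false

namespace Cfsg.Agent.H15.R3
open Cfsg.Agent.H15 Cfsg.Agent.H14 MulAction Subgroup

section
variable {G X Y : Type*} [Group G] [MulAction G X] [MulAction G Y]

/-- renumber part of a table -/
def renum (A : TabAct G X) (n : ℕ) (π ρ : ℕ → ℕ) (ap : ℕ → ℕ → ℕ)
    (h : ∀ x < n, π x < A.n ∧ ρ (π x) = x ∧ ∀ l < A.L, ap x l < n ∧ A.ap (π x) l = π (ap x l)) : TabAct G X where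
  e := A.e
  L := A.L
  n := n
  ap := ap
  c x := A.c (π x)
  lt x hx l hl := ((h x hx).2.2 l hl).1
  act x hx l hl := by rw [A.act _ (h x hx).1 l hl, ((h x hx).2.2 l hl).2]
  inj x hx y hy e := by rw [← (h x hx).2.1, A.inj _ (h x hx).1 _ (h y hy).1 e, (h y hy).2.1]

open Pointwise in
/-- action on blocks -/
def blocks (A : TabAct G X) (n k : ℕ) (π τ ap : ℕ → ℕ → ℕ)
    (h : ∀ x < n, (∀ i < k, π x i < A.n) ∧ ∀ l < A.L, ap x l < n ∧
      (∀ i < k, ∃ j < k, A.ap (π x i) l = π (ap x l) j) ∧ ∀ j < k, ∃ i < k, A.ap (π x i) l = π (ap x l) j)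
    (hk : 1 < k) (h' : ∀ x < n, (∀ j < k, ∃ m < k, τ (π x j) m = x) ∧
      ∀ m < k, τ (π x 0) m = x ∨ ∀ j < k, π x 1 ≠ π (τ (π x 0) m) j) : TabAct G (Set X) where
  e := A.e
  L := A.L
  n := n
  ap := ap
  c x := {p | ∃ i < k, A.c (π x i) = p}
  lt x hx l hl := ((h x hx).2 l hl).1
  act x hx l hl := by
    ext p
    constructor
    · rintro ⟨_, ⟨i, hi, rfl⟩, rfl⟩
      obtain ⟨j, hj, e⟩ := ((h x hx).2 l hl).2.1 i hi
      exact ⟨j, hj, e ▸ (A.act _ ((h x hx).1 i hi) l hl).symm⟩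
    · rintro ⟨j, hj, rfl⟩
      obtain ⟨i, hi, e⟩ := ((h x hx).2 l hl).2.2 j hj
      exact ⟨_, ⟨i, hi, rfl⟩, e ▸ A.act _ ((h x hx).1 i hi) l hl⟩
  inj x hx y hy e := by
    have a : ∀ i < k, ∃ j < k, π x i = π y j := fun i hi => by
      obtain ⟨j, hj, e⟩ := e.le ⟨i, hi, rfl⟩
      exact ⟨j, hj, (A.inj _ ((h y hy).1 j hj) _ ((h x hx).1 i hi) e).symm⟩
    obtain ⟨j, hj, b⟩ := a 0 (by omega)
    obtain ⟨m, hm, c⟩ := (h' y hy).1 j hj
    obtain ⟨i, hi, d⟩ := a 1 hk
    rw [← b] at c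
    exact c ▸ (((h' x hx).2 m hm).resolve_right fun f => f i hi (c.symm ▸ d)).symm

theorem trf (B : TabAct G X) (ht : B.seg 0 B.n ⊆ orbit (⊤ : Subgroup G) (B.c 0)) (h0 : 0 < B.n) (ω : Y)
    (h : stabilizer G (B.c 0) = stabilizer G ω) : ∃ W : TabAct G Y, W.e = B.e ∧ W.L = B.L ∧ W.n = B.n ∧ W.ap = B.ap ∧
      W.c 0 = ω ∧ ∀ x < B.n, ∃ g : G, g • B.c 0 = B.c x ∧ g • ω = W.c x := by
  have a : ∀ x, ∃ g : G, x < B.n → g • B.c 0 = B.c x := fun x => (em (x < B.n)).elim
    (fun hx => (ht ⟨x, ⟨Nat.zero_le _, hx⟩, rfl⟩).elim fun g e => ⟨g, fun _ => e⟩) fun hx => ⟨1, fun c => absurd c hx⟩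
  choose g hg using a
  have b : ∀ u v : G, u • B.c 0 = v • B.c 0 ↔ u • ω = v • ω := fun u v => by
    rw [← inv_smul_eq_iff, ← inv_smul_eq_iff (a := u • ω), ← mul_smul, ← mul_smul, ← mem_stabilizer_iff, h, mem_stabilizer_iff]
  exact ⟨⟨B.e, B.L, B.n, B.ap, fun x => g x • ω, B.lt, fun x hx l hl => by
    rw [← mul_smul, ← b, mul_smul, hg x hx, B.act x hx l hl, hg _ (B.lt x hx l hl)],
    fun x hx y hy e => B.inj x hx y hy (by rw [← hg x hx, ← hg y hy, b, e])⟩, rfl, rfl, rfl, rfl,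
    ((b _ 1).mp (by rw [hg 0 h0, one_smul])).trans (one_smul _ _), fun x hx => ⟨_, hg x hx, rfl⟩⟩

open Classical in
/-- total length of the chosen segments -/
noncomputable def wsum (P : ℕ → Prop) : ℕ → List ℕ → ℕ
  | _, [] => 0
  | s, t :: brk => (if P s then t - s else 0) + wsum P t brk

theorem ncard_segs (A : TabAct G X) {K : Subgroup G} {O : Set X} (hO : ∀ g ∈ K, ∀ x, g • x ∈ O ↔ x ∈ O) (brk : List ℕ) (s : ℕ)
    (h : A.Segs K s brk) : (O ∩ A.seg s A.n).ncard = wsum (fun s => A.c s ∈ O) s brk := by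
  induction brk generalizing s with
  | nil => rw [show s = A.n from h]; simp [wsum, TabAct.seg]
  | cons t brk ih =>
    obtain ⟨a, b, c, d⟩ := h
    rw [wsum, ← ih t d, A.seg_union a b, Set.inter_union_distrib_left, Set.ncard_union_eq
      ((A.seg_disjoint b le_rfl).mono Set.inter_subset_right Set.inter_subset_right)
      ((A.seg_finite _ _).inter_of_right _) ((A.seg_finite _ _).inter_of_right _)]
    have e : ∀ x ∈ A.seg s t, x ∈ O ↔ A.c s ∈ O := fun x hx => by
      obtain ⟨g, rfl⟩ := c hx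
      exact hO g g.2 _
    split_ifs with f
    · rw [Set.inter_eq_right.mpr fun x hx => (e x hx).mpr f, A.ncard_seg b]
    · rw [show O ∩ A.seg s t = ∅ from Set.eq_empty_of_forall_notMem fun x hx => f ((e x hx.2).mp hx.1), Set.ncard_empty]

theorem cl_list [Finite G] {E : ℕ → G} {ws S : List (List ℕ)} (h0 : [] ∈ S)
    (h : ∀ w ∈ ws, ∀ u ∈ S, ∃ v ∈ S, lprod E u * lprod E w = lprod E v) {g : G} (hg : g ∈ gp E ws) :
    ∃ v ∈ S, g = lprod E v := by
  let R : Submonoid G := ⟨⟨{g | ∀ u ∈ S, ∃ v ∈ S, lprod E u * g = lprod E v}, fun a b u hu => by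
    obtain ⟨v, hv, e⟩ := a u hu
    rw [← mul_assoc, e]; exact b v hv⟩, fun u hu => ⟨u, hu, mul_one _⟩⟩
  simpa using (gp_le (K := ⟨R, inv_mem_sub⟩)).mpr h hg [] h0

theorem ncard_tab (A : TabAct G X) (f : ℕ → Bool) {O : Set X} (h : ∀ p, p ∈ O ↔ ∃ x < A.n, f x = true ∧ A.c x = p) :
    O.ncard = cntLt A.n f := by
  rw [cntLt_eq, ← Set.ncard_coe_finset, ← Set.InjOn.ncard_image (f := A.c) fun x hx y hy e =>
    A.inj x (by simp at hx; exact hx.1) y (by simp at hy; exact hy.1) e]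
  congr 1; ext p; simp [h, and_assoc]
end

/-- a search tree -/
inductive Tr
  | br (v : ℕ) (l r : Tr)
  | cl (e : ℕ)
  | sol

/-- an equation cannot hold -/
noncomputable def viol (I O q : ℕ) : Bool :=
  frc (cntLt 20 fun i => tb I (get 7 q (i + 1))) fun a => frc (cntLt 20 fun i => tb O (get 7 q (i + 1))) fun b =>
    (tb O (get 7 q 0) || Nat.blt 10 a || Nat.blt 10 b) && (tb I (get 7 q 0) || Nat.blt 3 a || Nat.blt 17 b)

/-- check a search tree -/
noncomputable def chk (Q nv : ℕ) (sols : List ℕ) (t : Tr) : ℕ → ℕ → Bool :=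
  Tr.rec (fun v _ _ l r I O => frc (Nat.lor O (two v)) (l I) && frc (Nat.lor I (two v)) fun I' => r I' O)
    (fun e I O => Nat.blt e nv && frc (get 147 Q e) (viol I O))
    (fun I O => anyL sols (Nat.beq I) && allLt nv fun v => tb I v || tb O v) t

theorem chk_spec {Q nv : ℕ} {sols : List ℕ} (u : ℕ → Prop) [DecidablePred u]
    (hu : ∀ e < nv, ((Finset.range 20).filter fun i => u (get 7 (get 147 Q e) (i + 1))).card =
      if u (get 7 (get 147 Q e) 0) then 10 else 3) (t : Tr) (I O : ℕ) (hI : ∀ v, tb I v = true → u v)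
    (hO : ∀ v, tb O v = true → ¬ u v) (h : chk Q nv sols t I O = true) : ∃ s ∈ sols, ∀ v < nv, u v ↔ tb s v = true := by
  have k : ∀ m v w, tb (Nat.lor m (two v)) w = true → tb m w = true ∨ w = v := fun m v w h => by
    rw [tb_eq, show Nat.lor m (two v) = m ||| 1 <<< v from rfl, Nat.testBit_or, Bool.or_eq_true, Nat.one_shiftLeft,
      Nat.testBit_two_pow, decide_eq_true_eq, ← tb_eq] at h
    exact h.imp_right Eq.symm
  induction t generalizing I O with
  | br v l r hl hr =>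
    obtain ⟨a, b⟩ := Bool.and_eq_true_iff.mp h
    by_cases c : u v
    · exact hr _ _ (fun w e => (k _ _ _ e).elim (hI w) fun e => e ▸ c) hO b
    · exact hl _ _ hI (fun w e => (k _ _ _ e).elim (hO w) fun e => e ▸ c) a
  | cl e =>
    exfalso
    obtain ⟨a, b⟩ := Bool.and_eq_true_iff.mp h
    have c := hu e (Nat.blt_eq.mp a)
    simp only [viol, frc_eq, cntLt_eq, Bool.and_eq_true, Bool.or_eq_true, Nat.blt_eq] at b
    generalize get 147 Q e = q at b c
    have d := Finset.card_le_card (Finset.monotone_filter_right (Finset.range 20) fun i _ => hI (get 7 q (i + 1)))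
    have f := Finset.card_le_card (Finset.monotone_filter_right (Finset.range 20) fun i _ => hO (get 7 q (i + 1)))
    have g := Finset.card_filter_add_card_filter_not (s := Finset.range 20) fun i => u (get 7 q (i + 1))
    rw [Finset.card_range] at g
    have := hI (get 7 q 0)
    have := hO (get 7 q 0)
    split_ifs at c with z
    · rcases b.1 with (y | y) | y <;> first | tauto | omega
    · rcases b.2 with (y | y) | y <;> first | tauto | omega
  | sol =>
    obtain ⟨a, b⟩ := Bool.and_eq_true_iff.mp h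
    obtain ⟨s, hs, e⟩ := anyL_iff.mp a
    exact ⟨s, hs, fun v hv => nbeq_iff.mp e ▸ ⟨fun c => (Bool.or_eq_true_iff.mp (allLt_iff.mp b v hv)).resolve_right
      fun d => hO v d c, hI v⟩⟩

/-- the points with the same pattern -/
noncomputable def cls (A : ℕ) (row : ℕ → ℕ) (x m : ℕ) : ℕ :=
  Nat.rec A (fun i ih => frcN (row i) fun r => Nat.land ih (Bool.rec (Nat.xor r A) r (tb r x))) m

theorem cls_spec {A : ℕ} {row : ℕ → ℕ} {x y m : ℕ} (hy : tb A y = true) (h : ∀ i < m, tb (row i) y = tb (row i) x) :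
    tb (cls A row x m) y = true := by
  induction m with
  | zero => exact hy
  | succ m ih =>
    have a := ih fun i hi => h i (by omega)
    have b := h m (by omega)
    rw [tb_eq] at a hy ⊢
    show (cls A row x m &&& (Bool.rec (row m ^^^ A) (row m) (tb (row m) x))).testBit y = true
    rw [Nat.testBit_and, a]
    cases c : tb (row m) x <;> rw [c, tb_eq] at b <;> simp [b, hy]

end Cfsg.Agent.H15.R3
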