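import Cfsg.Agent.H15.R3.A
import Cfsg.Agent.H3.R3B
set_option autoImplicit false

namespace Cfsg.Agent.H15.R3
open Cfsg.Agent.H15 Cfsg.Agent.H14 MulAction Subgroup

/-- the points at distance two -/
def inD (x : ℕ) : Bool := Nat.ble 21 x && Nat.blt x 341

/-- the checks on a model of the second subconstituent -/
structure Dat (ap : ℕ → ℕ → ℕ) (rw s27 pw vs hw : List (List ℕ)) (ms : List ℕ) (ob wi rp eq nv : ℕ) (t : Tr) (sols : List ℕ) : Prop where
  p : okS 6 pw = true ∧ fixAt ap pw 0 = true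
  c1 : rall (connAt ap pw 1) 2 21 512 = true
  c2 : rall (connAt ap pw 21) 22 341 512 = true
  c3 : rall (connAt ap pw 341) 342 1365 512 = true
  v : allLt 21 (fun i => frc (ms.getD i 0) fun m => okW 6 (nthW vs i) && Nat.beq (tr ap (nthW vs i) i) 0 &&
    rall (fun x => tb m x == inD (tr ap (nthW vs i) x)) 0 1365 512) = true
  m : allLt 21 (fun i => frc (ms.getD i 0) fun a => !tb (ms.getD 0 0) i && (Nat.beq i 0 || Nat.beq (cntLt 21 (tb a)) 16) &&
    allLt 21 fun j => frc (Nat.land a (ms.getD j 0)) fun m =>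
      Nat.beq (cntLt 1365 (tb m)) (if i = j then 320 else if tb a j = true then 76 else 48)) = true
  s : allLt 27 (fun i => okW 6 (subst (nthW rw) (nthW s27 i))) = true
  o : rall (fun x => frc (get 7 ob x) fun v => frc (get 5 wi x) fun i => Nat.blt v nv && Nat.blt i 27 && Nat.blt (get 11 rp v) 1365 &&
    Nat.beq (tr ap (subst (nthW rw) (nthW s27 i)) x) (get 11 rp v)) 0 1365 512 = true
  e : allLt nv (fun e => frc (get 147 eq e) fun q => okW 6 (nthW hw e) &&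
    allLt 21 fun i => Nat.beq (get 7 q i) (get 7 ob (tr ap (nthW hw e) i))) = true
  t : chk eq nv sols t 0 0 = true

theorem core {H Ω : Type*} [Group H] [Finite H] [Fintype Ω] [MulAction H Ω] {Γ : SimpleGraph Ω} [DecidableRel Γ.Adj] {lam mu : ℕ}
    (h : Γ.IsSRGWith 1782 416 lam mu) (hg : ∀ (g : H) x y, Γ.Adj (g • x) (g • y) ↔ Γ.Adj x y) {a : Ω} (ha : ∀ g : H, g • a = a)
    (W : TabAct H Ω) (hn : W.n = 1365) (hL : W.L = 6) (hW : ∀ y, (y ≠ a ∧ ¬ Γ.Adj a y) ↔ y ∈ W.seg 0 1365)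
    {rw s27 pw vs hw : List (List ℕ)} {ms : List ℕ} {ob wi rp eq nv : ℕ} {t : Tr} {sols : List ℕ}
    (D : Dat W.ap rw s27 pw vs hw ms ob wi rp eq nv t sols) :
    lam = 100 ∧ mu = 96 ∧ (∀ x < 1365, Γ.Adj (W.c 0) (W.c x) ↔ inD x = true) ∧
      ∀ z, Γ.Adj a z → gp W.e rw ≤ stabilizer H z → ∃ s ∈ sols, ∀ x < 1365, Γ.Adj (W.c x) z ↔ tb s (get 7 ob x) = true := by
  classical
  have w : ∀ x < 1365, W.c x ≠ a ∧ ¬ Γ.Adj a (W.c x) := fun x hx => (hW _).mpr ⟨x, ⟨Nat.zero_le _, hx⟩, rfl⟩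
  have p0 := W.gp_le_stabilizer (hL ▸ D.p.1) (by omega) D.p.2
  have hO : ∀ g ∈ gp W.e pw, ∀ x, g • x ∈ {y | Γ.Adj (W.c 0) y} ↔ x ∈ {y | Γ.Adj (W.c 0) y} := fun g e x => by
    have := hg g (W.c 0) x
    rwa [show g • W.c 0 = W.c 0 from p0 e] at this
  have s1 := W.seg_subset_orbit (hL ▸ D.p.1) le_rfl (by omega) (RAll.of D.c1)
  have s2 := W.seg_subset_orbit (hL ▸ D.p.1) le_rfl (by omega) (RAll.of D.c2)
  have s3 := W.seg_subset_orbit (hL ▸ D.p.1) le_rfl (by omega) (RAll.of D.c3)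
  have c1 := ncard_segs W hO [21, 341, 1365] 1 ⟨by omega, by omega, s1, by omega, by omega, s2, by omega, by omega, s3, hn.symm⟩
  have c2 : {y | Γ.Adj (W.c 0) y} = Γ.commonNeighbors a (W.c 0) ∪ {y | Γ.Adj (W.c 0) y} ∩ W.seg 1 W.n := by
    ext y
    refine ⟨fun e => (em (Γ.Adj a y)).imp (fun f => ⟨f, e⟩) fun f => ⟨e, ?_⟩, fun e => e.elim (·.2) (·.1)⟩
    obtain ⟨x, hx, rfl⟩ := (hW y).mp ⟨fun k => (w 0 (by omega)).2 (k ▸ e.symm), f⟩
    exact ⟨x, ⟨Nat.pos_of_ne_zero fun k => Γ.irrefl (k ▸ e : Γ.Adj (W.c x) (W.c x)), hn ▸ hx.2⟩, rfl⟩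
  have c3 := congrArg Set.ncard c2
  rw [Set.ncard_union_eq (Set.disjoint_left.mpr fun y e f => by
      obtain ⟨x, hx, rfl⟩ := f.2
      exact (w x (hn ▸ hx.2)).2 e.1), c1, ← Nat.card_coe_set_eq (Γ.commonNeighbors _ _), Nat.card_eq_fintype_card,
    h.of_not_adj (w 0 (by omega)).1.symm (w 0 (by omega)).2, ← Nat.card_coe_set_eq, Nat.card_eq_fintype_card,
    show Fintype.card {y | Γ.Adj (W.c 0) y} = 416 from by rw [← h.regular (W.c 0), ← Γ.card_neighborSet_eq_degree]; congr!] at c3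
  have c4 := h.param_eq Γ (by norm_num)
  have c5 : lam = 100 ∧ mu = 96 ∧ ¬ Γ.Adj (W.c 0) (W.c 1) ∧ Γ.Adj (W.c 0) (W.c 21) ∧ ¬ Γ.Adj (W.c 0) (W.c 341) := by
    simp only [wsum, Set.mem_ofPred_eq] at c3
    split_ifs at c3 with d1 d2 d3 d4 d5 d6 d7 <;> first | omega | exact ⟨by omega, by omega, d1, d5, d6⟩
  obtain ⟨rfl, rfl, d1, d2, d3⟩ := c5
  have d : ∀ x < 1365, Γ.Adj (W.c 0) (W.c x) ↔ inD x = true := fun x hx => by
    have k : ∀ s t, W.seg s t ⊆ orbit (gp W.e pw) (W.c s) → s ≤ x → x < t → (Γ.Adj (W.c 0) (W.c x) ↔ Γ.Adj (W.c 0) (W.c s)) :=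
      fun s t e a b => by
        obtain ⟨g, f⟩ := e ⟨x, ⟨a, b⟩, rfl⟩
        exact f ▸ hO g g.2 _
    rw [inD, Bool.and_eq_true, nble_iff, Nat.blt_eq]
    by_cases e1 : x < 21
    · by_cases e0 : x = 0
      · simp [e0]
      · rw [k _ _ s1 (by omega) e1]; exact iff_of_false d1 (by omega)
    · by_cases e2 : x < 341
      · rw [k _ _ s2 (by omega) e2]; exact iff_of_true d2 (by omega)
      · rw [k _ _ s3 (by omega) hx]; exact iff_of_false d3 (by omega)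
  have mv : ∀ v, okW 6 v = true → ∀ x < 1365, ∀ y, Γ.Adj (W.c x) (lprod W.e v • y) ↔ Γ.Adj (W.c (tr W.ap v x)) y :=
    fun v hv x hx y => by rw [← (W.tr_spec (hL ▸ hv) (hn ▸ hx)).2, ← hg (lprod W.e v) (_ • _), smul_inv_smul]
  have e : ∀ i < 21, ∀ x < 1365, Γ.Adj (W.c i) (W.c x) ↔ tb (ms.getD i 0) x = true := fun i hi x hx => by
    have := allLt_iff.mp D.v i hi
    simp only [frc_eq, Bool.and_eq_true, nbeq_iff] at this
    rw [← W.smul_tr (x := x) (hL ▸ this.1.1) (hn ▸ hx), mv _ this.1.1 i (by omega), this.1.2,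
      d _ (hn ▸ (W.tr_spec (hL ▸ this.1.1) (hn ▸ hx)).1), beq_iff_eq.mp (RAll.of this.2 x (Nat.zero_le _) hx)]
  have m := fun i hi => allLt_iff.mp D.m i hi
  simp only [frc_eq, Bool.and_eq_true, Bool.or_eq_true, nbeq_iff, allLt_iff, Bool.not_eq_true', cntLt_eq] at m
  have T := H3.tight Γ h a W.c (fun i j => tb (ms.getD i 0) j) (fun i hi => (w i (by omega)).2)
    (fun i hi j hj => W.inj i (by omega) j (by omega)) (fun i hi j hj => e i hi j (by omega)) (fun j hj => (m j hj).1.1)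
    (fun i hi k => (m i hi).1.2.resolve_left k) (fun i hi j hj => by
      rw [← (m i hi).2 j hj, ← cntLt_eq, ← hn]
      refine ncard_tab W _ fun p => ⟨fun f => ?_, ?_⟩
      · obtain ⟨x, hx, rfl⟩ := (hW p).mp ⟨fun k => (w i (by omega)).2 (k ▸ f.2.1.symm), f.1⟩
        refine ⟨x, hn ▸ hx.2, ?_, rfl⟩
        rw [tb_eq, Nat.land_eq, Nat.testBit_and, ← tb_eq, ← tb_eq, (e i hi x hx.2).mp f.2.1, (e j hj x hx.2).mp f.2.2]; rfl
      · rintro ⟨x, hx, f, rfl⟩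
        rw [tb_eq, Nat.land_eq, Nat.testBit_and, ← tb_eq, ← tb_eq, Bool.and_eq_true] at f
        exact ⟨(w x (hn ▸ hx)).2, (e i hi x (hn ▸ hx)).mpr f.1, (e j hj x (hn ▸ hx)).mpr f.2⟩)
  refine ⟨rfl, rfl, d, fun z hz hR => ?_⟩
  have o : ∀ x < 1365, get 7 ob x < nv ∧ (Γ.Adj (W.c x) z ↔ Γ.Adj (W.c (get 11 rp (get 7 ob x))) z) := fun x hx => by
    have := RAll.of D.o x (Nat.zero_le _) hx
    simp only [frc_eq, Bool.and_eq_true, nbeq_iff, Nat.blt_eq] at this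
    refine ⟨this.1.1.1, ?_⟩
    rw [← this.2, ← mv _ (allLt_iff.mp D.s _ this.1.1.2) x hx, lprod_subst,
      show _ • z = z from hR (lprod_mem fun j _ => nthW_mem rw j)]
  obtain ⟨s, hs, k⟩ := chk_spec (fun v => Γ.Adj (W.c (get 11 rp v)) z) (fun q hq => by
    have := allLt_iff.mp D.e q hq
    simp only [frc_eq, Bool.and_eq_true, nbeq_iff, allLt_iff] at this
    have b : ∀ i < 21, Γ.Adj (W.c i) (lprod W.e (nthW hw q) • z) ↔ Γ.Adj (W.c (get 11 rp (get 7 (get 147 eq q) i))) z :=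
      fun i hi => by rw [mv _ this.1 i (by omega), this.2 i hi, (o _ (hn ▸ (W.tr_spec (hL ▸ this.1) (by omega)).1)).2]
    have c := T (lprod W.e (nthW hw q) • z) (by rw [← ha (lprod W.e (nthW hw q)), hg]; exact hz)
    rw [show Finset.Ico 1 21 = (Finset.range 20).image (· + 1) by decide, Finset.filter_image,
      Finset.card_image_of_injective _ (add_left_injective 1),
      Finset.filter_congr fun i hi => b (i + 1) (by have := Finset.mem_range.mp hi; omega), if_congr (b 0 (by omega)) rfl rfl] at c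
    exact c) t 0 0 (by simp [tb_eq]) (by simp [tb_eq]) D.t
  exact ⟨s, hs, fun x hx => (o x hx).2.trans (k _ (o x hx).1)⟩

end Cfsg.Agent.H15.R3
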