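import Cfsg.Agent.H15.R3.B
import Cfsg.Agent.H15.R3.D
set_option autoImplicit false
set_option maxRecDepth 100000
set_option Elab.async false

namespace Cfsg.Agent.H15.R3
open Cfsg.Agent.H15 Cfsg.Agent.H14

def ap2 (x l : ℕ) : ℕ := get 11 (apT2.getD l 0) x
def ap3 (x l : ℕ) : ℕ := get 11 (apT3.getD l 0) x
theorem dat2 : Dat ap2 rw s27 pw2 vs2 hw2 ms2 ob2 wi2 rp2 eq2 69 tr2 sols2 :=
  ⟨by decide +kernel, by decide +kernel, by decide +kernel, by decide +kernel, by decide +kernel, by decide +kernel,
    by decide +kernel, by decide +kernel, by decide +kernel, by decide +kernel⟩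
theorem dat3 : Dat ap3 rw s27 pw3 vs3 hw3 ms3 ob3 wi3 rp3 eq3 67 tr3 sols3 :=
  ⟨by decide +kernel, by decide +kernel, by decide +kernel, by decide +kernel, by decide +kernel, by decide +kernel,
    by decide +kernel, by decide +kernel, by decide +kernel, by decide +kernel⟩

end Cfsg.Agent.H15.R3
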