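import Cfsg.Agent.H15.R3.C
import Cfsg.Agent.H15.Suz
import Cfsg.Agent.H9.R3c
set_option autoImplicit false
set_option maxRecDepth 100000

namespace Cfsg.Agent.H15.R3
open Cfsg.Agent.H15 Cfsg.Agent.H14 Cfsg.Agent.H15.Suz MulAction Subgroup

theorem ball {P : ℕ → Prop} [DecidablePred P] {n : ℕ} (h : rall (fun x => decide (P x)) 0 n 512 = true) (x : ℕ) (hx : x < n) :
    P x := of_decide_eq_true (RAll.of h x (Nat.zero_le _) hx)
/-- the point stabiliser -/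
noncomputable abbrev H : Subgroup G := gp E hs
noncomputable def AH : TabAct H (Via φ) := A0.sub H 6 (by decide +kernel) fun l hl =>
  Set.mem_of_eq_of_mem (lprod_single (E := E) l).symm (mem_gp (E := E) ((by decide : ∀ l < 6, [l] ∈ hs) l hl))
theorem baseH : AH.Base ⊤ bs := base0.sub _ _ _ _
theorem topH : gp AH.e hs = ⊤ := gp_subE_top (letters_mem_gp (by decide +kernel))
noncomputable def B2 : TabAct H (Via φ) := renum AH 1365 (get 11 pi2) (get 11 rho2) ap2 (ball (by decide +kernel))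
def pf (x i : ℕ) : ℕ := get 11 (pi3.getD i 0) x
def tf (p m : ℕ) : ℕ := get 11 (tau3.getD m 0) p
theorem b3a : ∀ x < 1365, (∀ i < 5, pf x i < 1365) ∧ ∀ l < 6, ap3 x l < 1365 ∧
    (∀ i < 5, ∃ j < 5, ap2 (pf x i) l = pf (ap3 x l) j) ∧ ∀ j < 5, ∃ i < 5, ap2 (pf x i) l = pf (ap3 x l) j :=
  ball (by decide +kernel)
theorem b3b : ∀ x < 1365, (∀ j < 5, ∃ m < 5, tf (pf x j) m = x) ∧
    ∀ m < 5, tf (pf x 0) m = x ∨ ∀ j < 5, pf x 1 ≠ pf (tf (pf x 0) m) j := ball (by decide +kernel)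
open Pointwise in
noncomputable def B3 : TabAct H (Set (Via φ)) := blocks B2 1365 5 pf tf ap3 b3a (by norm_num) b3b
theorem ht2 : B2.seg 0 B2.n ⊆ orbit (⊤ : Subgroup H) (B2.c 0) :=
  B2.seg_subset_orbit (S := tw2) (by decide +kernel) le_top le_rfl (RAll.of (by decide +kernel))
open Pointwise in
theorem ht3 : B3.seg 0 B3.n ⊆ orbit (⊤ : Subgroup H) (B3.c 0) :=
  B3.seg_subset_orbit (S := tw3) (by decide +kernel) le_top le_rfl (RAll.of (by decide +kernel))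
theorem cl2 (g : H) : g • B2.c 0 ∈ B2.seg 0 1365 :=
  B2.smul_mem_seg (S := hs) (by decide +kernel) le_rfl (RAll.of (by decide +kernel)) (topH.ge trivial) _ ⟨0, ⟨le_rfl, by decide +kernel⟩, rfl⟩
theorem p3 : IsPGroup 3 (gp AH.e rw) := fun g => by
  obtain ⟨v, hv, e⟩ := cl_list (S := s27.map (subst (nthW rw))) (by decide +kernel) (fun w hw u hu => by
    obtain ⟨v, hv, e⟩ := (by decide +kernel : ∀ w ∈ rw, ∀ u ∈ s27.map (subst (nthW rw)), ∃ v ∈ s27.map (subst (nthW rw)),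
      eqOn AH.ap AH.L bs (appL u w) v = true) w hw u hu
    exact ⟨v, hv, (lprod_appL _ _).symm.trans (baseH.eq e)⟩) g.2
  exact ⟨1, Subtype.ext (by
    rw [coe_pow, e]
    exact baseH.pow ((by decide +kernel : ∀ v ∈ s27.map (subst (nthW rw)), eqOn AH.ap AH.L bs (repL v 3) [] = true) v hv))⟩
theorem sgS (S : Sylow 2 (gp B2.e bw)) {s t k : ℕ} (h : s < t ∧ t ≤ 1365 ∧ t - s = 2 ^ k ∧
    rall (connAt ap2 bw s) (s + 1) t 512 = true ∧ rall (closAt ap2 bw s t) s t 512 = true) :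
    B2.seg s t ⊆ orbit ((S : Subgroup (gp B2.e bw)).map (gp B2.e bw).subtype) (B2.c s) := by
  have a := B2.orbit_eq_seg (S := bw) (by decide +kernel) h.1 h.2.1 (RAll.of h.2.2.2.1) (RAll.of h.2.2.2.2)
  rw [← a, ← H9.R3.syl_orbit S _ (by rw [a, B2.ncard_seg h.2.1, h.2.2.1])]
  rintro _ ⟨g, rfl⟩
  exact ⟨⟨_, g.1, g.2, rfl⟩, rfl⟩

end Cfsg.Agent.H15.R3
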