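import Cfsg.Agent.H15.R3.E
set_option autoImplicit false
set_option maxRecDepth 100000

namespace Cfsg.Agent.H15.R3
open Cfsg.Agent.H15 Cfsg.Agent.H14 Cfsg.Agent.H15.Suz MulAction Subgroup

open Pointwise in
theorem par {Ω : Type*} [MulAction H Ω] {c : Ω} (hc : (orbit H c).ncard = 1365) : ∃ ω ∈ orbit H c,
    stabilizer H (B2.c 0) = stabilizer H ω ∨ stabilizer H (B3.c 0) = stabilizer H ω := by
  obtain ⟨S⟩ : Nonempty (Sylow 2 (gp B2.e bw)) := inferInstance
  obtain ⟨⟨ω, hω⟩, e⟩ := S.isPGroup'.nonempty_fixed_point_of_prime_not_dvd_card (orbit H c) (by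
    rw [Nat.card_coe_set_eq, hc]; norm_num)
  have i : (stabilizer H ω).index = 1365 := by rw [index_stabilizer, orbit_eq_iff.mpr hω, hc]
  have hO : ∀ g ∈ (S : Subgroup (gp B2.e bw)).map (gp B2.e bw).subtype, ∀ x,
      g • x ∈ orbit (stabilizer H ω) (B2.c 0) ↔ x ∈ orbit (stabilizer H ω) (B2.c 0) := by
    rintro _ ⟨g, hg, rfl⟩ x
    have := smul_orbit (⟨g, congrArg Subtype.val (e ⟨g, hg⟩)⟩ : stabilizer H ω) (B2.c 0)
    nth_rewrite 1 [← this]
    exact Set.smul_mem_smul_set_iff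
  have s5 : B2.Segs _ 5 [21, 85, 341, 1365] := ⟨by norm_num, by decide +kernel, sgS S (k := 4) (by decide +kernel), by norm_num,
    by decide +kernel, sgS S (k := 6) (by decide +kernel), by norm_num, by decide +kernel, sgS S (k := 8) (by decide +kernel),
    by norm_num, le_rfl, sgS S (k := 10) (by decide +kernel), rfl⟩
  have s1 : B2.Segs _ 1 [5, 21, 85, 341, 1365] := ⟨by norm_num, by decide +kernel, sgS S (k := 2) (by decide +kernel), s5⟩
  have c0 := ncard_segs B2 hO [1, 5, 21, 85, 341, 1365] 0 ⟨by norm_num, by decide +kernel, sgS S (k := 0) (by decide +kernel), s1⟩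
  have c1 := ncard_segs B2 hO _ _ s1
  have c5 := ncard_segs B2 hO _ _ s5
  have sb : orbit (stabilizer H ω) (B2.c 0) ⊆ B2.seg 0 B2.n := by
    rintro _ ⟨g, rfl⟩
    exact cl2 g
  have dv : (orbit (stabilizer H ω) (B2.c 0)).ncard ∣ 184320 := by
    have := (stabilizer H ω).index_mul_card
    rw [i, card_hs] at this
    rw [← index_stabilizer, show 184320 = Nat.card (stabilizer H ω) by omega]
    exact index_dvd_card _
  rw [Set.inter_eq_left.mpr sb] at c0
  have k : ∀ t ≤ 1365, (orbit (stabilizer H ω) (B2.c 0) ∩ B2.seg t B2.n).ncard = 0 →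
      orbit (stabilizer H ω) (B2.c 0) ⊆ B2.seg 0 t := fun t ht a y b =>
    ((B2.seg_union (Nat.zero_le _) ht).le (sb b)).resolve_right fun c =>
      ((Set.ncard_eq_zero ((B2.seg_finite _ _).inter_of_right _)).mp a).le ⟨b, c⟩
  have : (orbit (stabilizer H ω) (B2.c 0) ∩ B2.seg 1 B2.n).ncard = 0 ∨ (orbit (stabilizer H ω) (B2.c 0)).ncard = 5 ∧
      (orbit (stabilizer H ω) (B2.c 0) ∩ B2.seg 5 B2.n).ncard = 0 := by
    rw [c0] at dv
    rw [c0, c1, c5]
    simp only [wsum, if_pos (mem_orbit_self _)] at dv ⊢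
    split_ifs at dv ⊢ <;> omega
  refine ⟨ω, hω, this.imp (fun a => ?_) fun a => ?_⟩
  · refine (B2.stabilizer_eq (fun g hg => ?_) (by rw [i]; exact ⟨by norm_num, le_rfl⟩) ht2).1.symm
    obtain ⟨x, hx, e⟩ := k 1 (by norm_num) a ⟨⟨g, hg⟩, rfl⟩
    exact (show x = 0 by have := hx.2; omega) ▸ e.symm
  · refine (B3.stabilizer_eq (fun g hg => ?_) (by rw [i]; exact ⟨by norm_num, le_rfl⟩) ht3).1.symm
    have b : B3.c 0 = orbit (stabilizer H ω) (B2.c 0) := by
      rw [Set.eq_of_subset_of_ncard_le (k 5 (by norm_num) a.2) (by rw [a.1, B2.ncard_seg (by decide +kernel)]) (B2.seg_finite _ _)]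
      have := (by decide +kernel : ∀ i < 5, pf 0 i = i)
      exact Set.ext fun p => ⟨fun ⟨i, hi, e⟩ => ⟨i, ⟨Nat.zero_le _, hi⟩, (congrArg B2.c (this i hi)).symm.trans e⟩,
        fun ⟨i, hi, e⟩ => ⟨i, hi.2, (congrArg B2.c (this i hi.2)).trans e⟩⟩
    rw [mem_stabilizer_iff, b]
    exact smul_orbit (⟨g, hg⟩ : stabilizer H ω) _

end Cfsg.Agent.H15.R3
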