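import Cfsg.Agent.H15.R3.F
set_option autoImplicit false
set_option maxRecDepth 100000
set_option linter.unusedSectionVars false

namespace Cfsg.Agent.H15.R3
open Cfsg.Agent.H15 Cfsg.Agent.H14 Cfsg.Agent.H15.Suz MulAction Subgroup

variable {Ω X : Type*} [Fintype Ω] [Fintype X] [MulAction H Ω] [MulAction H X] {Γ : SimpleGraph Ω} {Δ : SimpleGraph X}
  [DecidableRel Γ.Adj] [DecidableRel Δ.Adj]

theorem cmn (h : Γ.IsSRGWith 1782 416 100 96) {x y : Ω} (e : x ≠ y) : (Γ.commonNeighbors x y).ncard ≤ 100 := by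
  classical
  rw [← Nat.card_coe_set_eq, Nat.card_eq_fintype_card]
  by_cases a : Γ.Adj x y
  · exact (h.of_adj x y a).le
  · exact (h.of_not_adj e a).le.trans (by norm_num)

theorem deg {l m : ℕ} (h : Γ.IsSRGWith 1782 416 l m) (x : Ω) : (Γ.neighborSet x).ncard = 416 := by
  rw [← Nat.card_coe_set_eq, Nat.card_eq_fintype_card, Γ.card_neighborSet_eq_degree, h.regular x]

theorem rig (h : Γ.IsSRGWith 1782 416 100 96) {a z w : Ω} (e : Γ.Adj a z)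
    (k : ∀ y, y ≠ a → ¬ Γ.Adj a y → Γ.Adj y z → Γ.Adj y w) : z = w := by
  by_contra c
  have b : Γ.neighborSet z ⊆ Γ.commonNeighbors a z ∪ insert a (Γ.commonNeighbors z w) := fun y hy =>
    (em (Γ.Adj a y)).imp (fun f => ⟨f, hy⟩) fun f => (em (y = a)).imp_right fun g => ⟨hy, (k y g f (Γ.adj_symm hy)).symm⟩
  have := (Set.ncard_le_ncard b).trans ((Set.ncard_union_le _ _).trans (add_le_add (cmn h e.ne) (Set.ncard_insert_le _ _)))
  have := cmn h c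
  have := deg h z
  omega

/-- the normal form of the graph -/
structure St (Γ : SimpleGraph Ω) [DecidableRel Γ.Adj] (a z ω : Ω) : Prop where
  h : Γ.IsSRGWith 1782 416 100 96
  hg : ∀ (g : H) x y, Γ.Adj (g • x) (g • y) ↔ Γ.Adj x y
  ha : ∀ g : H, g • a = a
  hb : ∀ y, Γ.Adj a y ↔ y ∈ orbit H z
  hc : ∀ y, (y ≠ a ∧ ¬ Γ.Adj a y) ↔ y ∈ orbit H ω
  hs : stabilizer H (B2.c 0) = stabilizer H ω
  hx : ∀ (g : H), ∀ x < 1365, g • B2.c 0 = B2.c x →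
    (Γ.Adj ω (g • ω) ↔ inD x = true) ∧ (Γ.Adj (g • ω) z ↔ tb sa (get 7 ob2 x) = true)

open Pointwise in
theorem main {lam mu : ℕ} (h : Γ.IsSRGWith 1782 416 lam mu) (hg : ∀ (g : H) x y, Γ.Adj (g • x) (g • y) ↔ Γ.Adj x y) {a b c : Ω}
    (ha : ∀ g : H, g • a = a) (hb : ∀ y, Γ.Adj a y ↔ y ∈ orbit H b) (hc : ∀ y, (y ≠ a ∧ ¬ Γ.Adj a y) ↔ y ∈ orbit H c)
    (nc : (orbit H c).ncard = 1365) : ∃ z ω, St Γ a z ω := by
  obtain ⟨⟨z, hz⟩, e⟩ := p3.nonempty_fixed_point_of_prime_not_dvd_card (orbit H b) (by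
    rw [Nat.card_coe_set_eq, ← show Γ.neighborSet a = _ from Set.ext hb, deg h a]; norm_num)
  have hR : gp AH.e rw ≤ stabilizer H z := fun g k => congrArg Subtype.val (e ⟨g, k⟩)
  have k : ∀ (W : TabAct H Ω) (ω : Ω), ω ∈ orbit H c → W.n = 1365 → (∀ x < 1365, ∃ g : H, g • ω = W.c x) →
      ∀ y, (y ≠ a ∧ ¬ Γ.Adj a y) ↔ y ∈ W.seg 0 1365 := fun W ω a1 a2 a3 y => by
    rw [hc, ← Set.eq_of_subset_of_ncard_le (s := W.seg 0 1365) (t := orbit H c) (by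
      rintro _ ⟨x, hx, rfl⟩
      exact orbit_eq_iff.mpr a1 ▸ a3 x hx.2) (by rw [nc, W.ncard_seg a2.ge])]
  obtain ⟨ω, hω, p | p⟩ := par nc
  swap
  · obtain ⟨W, w1, w2, w3, w4, -, w6⟩ := trf B3 ht3 (by decide +kernel) ω p
    obtain ⟨s, hs, -⟩ := (core h hg ha W w3 w2 (k W ω hω w3 fun x hx => (w6 x hx).imp fun _ => And.right) ((show W.ap = ap3 from w4) ▸ dat3)).2.2.2
      z ((hb z).mpr hz) (w1 ▸ hR)
    exact absurd hs List.not_mem_nil
  obtain ⟨W, w1, w2, w3, w4, w5, w6⟩ := trf B2 ht2 (by decide +kernel) ω p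
  obtain ⟨rfl, rfl, d, f⟩ := core h hg ha W w3 w2 (k W ω hω w3 fun x hx => (w6 x hx).imp fun _ => And.right) ((show W.ap = ap2 from w4) ▸ dat2)
  obtain ⟨s, hs, f⟩ := f z ((hb z).mpr hz) (w1 ▸ hR)
  have w3' : W.n = 1365 := w3
  have mv : ∀ v, okW 6 v = true → ∀ x < 1365, tr ap2 v x < 1365 ∧
      (Γ.Adj (W.c x) (lprod W.e v • z) ↔ Γ.Adj (W.c (tr ap2 v x)) z) := fun v hv x hx => by
    have := W.tr_spec (w := v) (w2 ▸ hv) (w3' ▸ hx)
    rw [w4, w3'] at this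
    exact ⟨this.1, by rw [← show _ = W.c (tr ap2 v x) from this.2, ← hg (lprod W.e v) (_ • _), smul_inv_smul]⟩
  obtain ⟨v, hv, e⟩ : ∃ v, okW 6 v = true ∧ ∀ x < 1365, tb s (get 7 ob2 (tr ap2 v x)) = tb sa (get 7 ob2 x) := by
    rcases (by decide +kernel : ∀ s ∈ sols2, s = sa ∨ s = sb ∨
      (100 < cntLt 1365 fun x => tb s (get 7 ob2 x) && tb s (get 7 ob2 (tr ap2 [0] x))) ∧
      anyLt 1365 (fun x => tb s (get 7 ob2 x) && !tb s (get 7 ob2 (tr ap2 [0] x))) = true) s hs with rfl | rfl | ⟨a1, a2⟩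
    · exact ⟨[], rfl, fun _ _ => rfl⟩
    · exact ⟨hab, by decide +kernel, ball (by decide +kernel)⟩
    exfalso
    obtain ⟨x, hx, a2⟩ := anyLt_iff.mp a2
    rw [Bool.and_eq_true, Bool.not_eq_true', ← Bool.not_eq_true, ← f x hx, ← f _ (mv [0] rfl x hx).1, ← (mv [0] rfl x hx).2] at a2
    rw [← w3', ← ncard_tab W _ (O := {p | ∃ x < W.n, (tb s (get 7 ob2 x) && tb s (get 7 ob2 (tr ap2 [0] x))) = true ∧ W.c x = p})
      fun _ => Iff.rfl] at a1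
    refine absurd ((Set.ncard_le_ncard ?_).trans (cmn h (x := z) (y := lprod W.e [0] • z) fun c => a2.2 (c ▸ a2.1))) (not_le.mpr a1)
    rintro _ ⟨y, hy, c, rfl⟩
    rw [w3'] at hy
    rw [Bool.and_eq_true, ← f y hy, ← f _ (mv [0] rfl y hy).1, ← (mv [0] rfl y hy).2] at c
    exact ⟨c.1.symm, c.2.symm⟩
  refine ⟨lprod W.e v • z, ω, h, hg, ha, fun y => by rw [orbit_smul, orbit_eq_iff.mpr hz, hb],
    fun y => by rw [orbit_eq_iff.mpr hω, hc], p, fun g x hx c => ?_⟩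
  obtain ⟨u, a1, a2⟩ := w6 x hx
  have : g • ω = W.c x := by
    rw [← a2, ← inv_smul_eq_iff, ← mul_smul, ← mem_stabilizer_iff, ← p, mem_stabilizer_iff, mul_smul, c, ← a1, inv_smul_smul]
  rw [this, ← d x hx, w5, (mv v hv x hx).2, f _ (mv v hv x hx).1, e x hx]
  exact ⟨Iff.rfl, Iff.rfl⟩

variable {a z ω : Ω} {a' z' ω' : X}

theorem St.k (s : St Γ a z ω) (t : St Δ a' z' ω') (g : H) :
    (Γ.Adj ω (g • ω) ↔ Δ.Adj ω' (g • ω')) ∧ (Γ.Adj (g • ω) z ↔ Δ.Adj (g • ω') z') := by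
  obtain ⟨x, hx, e⟩ := cl2 g
  exact ⟨(s.hx g x hx.2 e.symm).1.trans (t.hx g x hx.2 e.symm).1.symm, (s.hx g x hx.2 e.symm).2.trans (t.hx g x hx.2 e.symm).2.symm⟩

theorem St.le (s : St Γ a z ω) (t : St Δ a' z' ω') : stabilizer H z ≤ stabilizer H z' := fun k hk =>
  (rig t.h ((t.hb _).mpr (mem_orbit_self _)) fun y a1 a2 a3 => by
    obtain ⟨g, rfl⟩ := (t.hc y).mp ⟨a1, a2⟩
    rw [← t.hg k⁻¹, inv_smul_smul, ← mul_smul, ← (s.k t _).2, mul_smul, ← s.hg k, smul_inv_smul, show k • z = z from hk]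
    exact (s.k t g).2.mpr a3).symm

theorem St.inside (s : St Γ a z ω) {o : Ω} (h1 : Γ.Adj a o) (h2 : o ≠ z) (h3 : 315 ≤ (orbit (stabilizer H z) o).ncard) {y : Ω}
    (hy : Γ.Adj a y) : Γ.Adj z y ↔ y ≠ z ∧ y ∉ orbit (stabilizer H z) o := by
  have e : Γ.Adj a z := (s.hb _).mpr (mem_orbit_self _)
  have a1 : ∀ g : stabilizer H z, Γ.Adj a (g • o) ∧ (Γ.Adj z (g • o) ↔ Γ.Adj z o) := fun g => by
    have b := s.hg g z o
    rw [show (g : H) • z = z from g.2] at b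
    exact ⟨by rw [← s.ha g]; exact (s.hg g a o).mpr h1, b⟩
  have a2 : ¬ Γ.Adj z o := fun c => absurd ((Set.ncard_le_ncard (s := orbit (stabilizer H z) o) (by
    rintro _ ⟨g, rfl⟩
    exact ⟨(a1 g).1, (a1 g).2.mpr c⟩)).trans (cmn s.h e.ne)) (by omega)
  have a3 : z ∉ orbit (stabilizer H z) o := fun ⟨g, c⟩ => h2 (smul_left_cancel g (c.trans g.2.symm))
  have a4 : Γ.commonNeighbors a z = Γ.neighborSet a \ insert z (orbit (stabilizer H z) o) :=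
    Set.eq_of_subset_of_ncard_le (fun y c => ⟨c.1, fun d => d.elim (fun d => c.2.ne d.symm) fun ⟨g, d⟩ => a2 ((a1 g).2.mp ((show g • o = y from d) ▸ c.2))⟩) (by
      rw [Set.ncard_sdiff (by
        rintro _ (rfl | ⟨g, rfl⟩)
        exacts [e, (a1 g).1]), deg s.h, Set.ncard_insert_of_notMem a3, ← Nat.card_coe_set_eq (Γ.commonNeighbors _ _),
        Nat.card_eq_fintype_card, s.h.of_adj a z e]
      omega)
  exact ⟨fun c => not_or.mp (a4.le ⟨hy, c⟩).2, fun c => (a4.ge ⟨hy, not_or.mpr c⟩).2⟩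

theorem St.c (s : St Γ a z ω) : (∀ y, y = a ∨ y ∈ orbit H z ∨ y ∈ orbit H ω) ∧ a ∉ orbit H z ∧ a ∉ orbit H ω ∧ z ∉ orbit H ω :=
  ⟨fun y => by rw [← s.hb, ← s.hc]; tauto, fun c => ((s.hb _).mpr c).ne rfl, fun c => ((s.hc _).mpr c).1 rfl,
    fun c => ((s.hc _).mpr c).2 ((s.hb _).mpr (mem_orbit_self _))⟩

theorem St.iso (s : St Γ a z ω) (t : St Δ a' z' ω') {o : X} (h1 : Δ.Adj a' o) (h2 : o ≠ z')
    (h3 : 315 ≤ (orbit (stabilizer H z') o).ncard) : ∃ β : X ≃ Ω, ∀ x y, Γ.Adj (β x) (β y) ↔ Δ.Adj x y := by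
  have st := le_antisymm (t.le s) (s.le t)
  obtain ⟨β, b0, b1, b2, b⟩ := H9.R3.glue a' z' ω' a z ω t.ha s.ha st (t.hs.symm.trans s.hs) t.c.1 s.c.1 t.c.2 s.c.2
  have ob : ∀ (K : Subgroup H) u y, β y ∈ orbit K (β u) ↔ y ∈ orbit K u := fun K u y => exists_congr fun g => by
    show (g : H) • β u = β y ↔ (g : H) • u = y
    rw [← b, β.injective.eq_iff]
  have q0 : ∀ y, Γ.Adj (β a') (β y) ↔ Δ.Adj a' y := fun y => by
    rw [b0, s.hb, t.hb, ← b1]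
    exact exists_congr fun g => by
      show g • β z' = β y ↔ g • z' = y
      rw [← b, β.injective.eq_iff]
  have q1 : ∀ g : H, Γ.Adj (β (g • ω')) (β z') ↔ Δ.Adj (g • ω') z' := fun g => by rw [b, b1, b2]; exact (s.k t g).2
  have r : ∀ (g : H) x, (∀ y, Γ.Adj (β x) (β y) ↔ Δ.Adj x y) → ∀ y, Γ.Adj (β (g • x)) (β y) ↔ Δ.Adj (g • x) y := fun g x h y => by
    obtain ⟨y, rfl⟩ := MulAction.surjective g y
    rw [b, b, s.hg, t.hg, h]
  refine ⟨β, fun x => ?_⟩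
  rcases t.c.1 x with rfl | ⟨g, rfl⟩ | ⟨g, rfl⟩
  · exact q0
  · refine r g _ fun y => ?_
    rcases t.c.1 y with rfl | e | ⟨g, rfl⟩
    · rw [Γ.adj_comm, Δ.adj_comm]; exact q0 _
    · have e' := (t.hb y).mpr e
      rw [t.inside h1 h2 h3 e', b1, s.inside (o := β o) (b0 ▸ (q0 o).mpr h1) (b1 ▸ β.injective.ne h2) (h3.trans
        (Set.ncard_le_ncard_of_injOn β (fun y hy => st ▸ (ob _ _ _).mpr hy) β.injective.injOn)) (b0 ▸ (q0 y).mpr e'),
        ← st, ob, ← b1, β.injective.ne_iff]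
    · rw [Γ.adj_comm, Δ.adj_comm]; exact q1 g
  · refine r g _ fun y => ?_
    rcases t.c.1 y with rfl | ⟨g, rfl⟩ | ⟨g, rfl⟩
    · rw [Γ.adj_comm, Δ.adj_comm]; exact q0 _
    · have := q1 g⁻¹
      rwa [← s.hg g, ← t.hg g, ← b, ← b, smul_inv_smul] at this
    · show Γ.Adj _ (β (g • ω')) ↔ _
      rw [b, b2]; exact (s.k t g).1

theorem fin {P : Type*} [Group P] [Finite P] {A U V : Subgroup P} (hU : U ≤ A) (hV : V ≤ A) [IsSimpleGroup V]
    (hc : Nat.card U = Nat.card V) (hA : Nat.card A ≤ 2 * Nat.card V) (h2 : 2 < Nat.card V) : U = V := by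
  have a := (U.subgroupOf A).index_mul_card
  rw [Nat.card_congr (subgroupOfEquivOfLe hU).toEquiv, hc] at a
  have b : (U.subgroupOf V).index ≤ 2 := (relIndex_le_of_le_right hV index_ne_zero_of_finite).trans
    (Nat.le_of_mul_le_mul_right (a.le.trans hA) (by omega))
  have c : (U.subgroupOf V).index ≠ 0 := index_ne_zero_of_finite
  refine (eq_of_le_of_card_ge (subgroupOf_eq_top.mp ?_) hc.le).symm
  by_cases d : (U.subgroupOf V).index = 2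
  · refine (IsSimpleGroup.eq_bot_or_eq_top_of_normal _ (normal_of_index_eq_two d)).resolve_left fun e => ?_
    rw [e, index_bot] at d; omega
  · exact index_eq_one.mp (by omega)

end Cfsg.Agent.H15.R3
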