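import Cfsg.Agent.H15.R3.G
import Cfsg.Agent.H3.R3A
set_option autoImplicit false
set_option maxRecDepth 100000

namespace Cfsg.Agent.H15.R3
open Cfsg.Agent.H15 Cfsg.Agent.H14 Cfsg.Agent.H15.Suz MulAction Subgroup

noncomputable instance finX : Fintype (Via φ) := inferInstanceAs (Fintype (Fin 1782))
theorem fullX : A0.Full := pok.full
instance trX : IsPretransitive G (Via φ) := ⟨fun x y => by
  obtain ⟨i, hi, rfl⟩ := fullX x
  obtain ⟨j, hj, rfl⟩ := fullX y
  obtain ⟨g, e⟩ := trans0 ⟨i, ⟨Nat.zero_le _, hi⟩, rfl⟩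
  obtain ⟨k, f⟩ := trans0 ⟨j, ⟨Nat.zero_le _, hj⟩, rfl⟩
  exact ⟨k * g⁻¹, by rw [mul_smul, ← e, ← f]; exact congrArg _ (inv_smul_smul _ _)⟩⟩
theorem o1 : orbit H (A0.c 1) = A0.seg 1 417 :=
  A0.orbit_eq_seg (S := hs) (by decide +kernel) (by norm_num) (by decide +kernel) conn1 clos1
theorem o2 : orbit H (A0.c 417) = A0.seg 417 1782 :=
  A0.orbit_eq_seg (S := hs) (by decide +kernel) (by norm_num) (by decide +kernel) conn2 (RAll.of (by decide +kernel))
/-- the points that are not yet used -/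
noncomputable def nm (j : ℕ) : ℕ := Nat.xor (2 ^ 1782 - 1) (orLt j fun i => two (sq.getD i 0))
theorem nm_spec {j y : ℕ} (h : y < 1782) (k : ∀ i < j, y ≠ sq.getD i 0) : tb (nm j) y = true := by
  have : (orLt j fun i => two (sq.getD i 0)).testBit y = false := Bool.eq_false_iff.mpr fun e => by
    obtain ⟨i, hi, e⟩ := (testBit_orLt _ _ _).mp e
    rw [two, Nat.shiftLeft_eq', Nat.one_shiftLeft, Nat.testBit_two_pow, decide_eq_true_eq] at e
    exact k i hi e.symm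
  rw [tb_eq, nm, Nat.xor_eq, Nat.testBit_xor, this, Nat.testBit_two_pow_sub_one]; simp [h]
theorem rc1 : allLt 31 (fun j => frc (rows.getD j 0) fun r => okW 7 (nthW sv j) && Nat.blt (sq.getD j 0) 1782 &&
    Nat.beq (tr SzA.ap (nthW sv j) (sq.getD j 0)) 0 && rall (fun y => frc (tr SzA.ap (nthW sv j) y) fun u =>
      tb r y == (Nat.ble 1 u && Nat.blt u 417)) 0 1782 512) = true := by decide +kernel
theorem rc2 : allLt 31 (fun j => frc (cls (nm j) (rows.getD · 0) (sq.getD j 0) j) fun M =>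
    Nat.ble (cntLt 1782 (tb M)) (ks.getD j 0)) = true := by decide +kernel
theorem rc3 : frc (nm 31) (fun N => rall (fun x => !tb N x || Nat.beq (cls N (rows.getD · 0) x 31) (two x)) 0 1782 512) = true := by
  decide +kernel

theorem model : ∃ (Δ : SimpleGraph (Via φ)) (_ : DecidableRel Δ.Adj) (z ω o : Via φ), St Δ (A0.c 0) z ω ∧ Δ.Adj (A0.c 0) o ∧ o ≠ z ∧
    315 ≤ (orbit (stabilizer H z) o).ncard ∧ (∀ (g : G) x y, Δ.Adj (g • x) (g • y) ↔ Δ.Adj x y) ∧
    ∀ A : Subgroup (Equiv.Perm (Via φ)), (∀ g ∈ A, ∀ x y, Δ.Adj (g x) (g y) ↔ Δ.Adj x y) → Nat.card A ≤ 896690995200 := by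
  obtain ⟨Δ, _, lam, mu, h, hg, h1, h2⟩ := H3.r3 (G := G) (A0.c 0) (A0.c 1) (A0.c 417) (k := 416) (l := 1365) (Fintype.card_fin _)
    (by rw [← stab0.1, o1, A0.ncard_seg (by decide +kernel)]) (by rw [← stab0.1, o2, A0.ncard_seg (by decide +kernel)])
    (by norm_num) (by norm_num) (by norm_num)
  rw [← stab0.1] at h1 h2
  obtain ⟨z, ω, s⟩ := main h (fun g => hg g) (fun g => stab0.1.le g.2) h1 h2 (by rw [o2, A0.ncard_seg (by decide +kernel)])
  obtain ⟨g, rfl⟩ := (h1 z).mp ((s.hb z).mpr (mem_orbit_self _))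
  have j := AH.le_ncard_orbit (S := jw) (by decide +kernel) (AH.gp_le_stabilizer (x := 1) (by decide +kernel) (by decide +kernel)
    (by decide +kernel)) (x := 2) (by decide +kernel) id (fuel := 400) (m := 315) (by decide +kernel)
  refine ⟨Δ, _, _, ω, g • A0.c 2, s, (s.ha g).symm ▸ (hg g _ _).mpr ((h1 _).mpr (o1.ge ⟨2, by norm_num, rfl⟩)), fun e =>
    absurd (A0.inj _ (by decide +kernel) _ (by decide +kernel) (smul_left_cancel g e)) (by norm_num),
    j.trans (Set.ncard_le_ncard_of_injOn (g • ·) ?_ (MulAction.injective g).injOn), hg, fun A hA => ?_⟩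
  · rintro _ ⟨k, rfl⟩
    exact ⟨⟨g * k * g⁻¹, by
      show (g * k * g⁻¹) • g • A0.c 1 = g • A0.c 1
      rw [mul_smul, inv_smul_smul, mul_smul]; exact congrArg _ k.2⟩, by
      show (g * k * g⁻¹) • g • A0.c 2 = g • (k : H) • A0.c 2
      rw [mul_smul, inv_smul_smul, mul_smul]⟩
  have r := fun j hj => allLt_iff.mp rc1 j hj
  simp only [frc_eq, Bool.and_eq_true, nbeq_iff, Nat.blt_eq] at r
  have e : ∀ j < 31, ∀ y < 1782, Δ.Adj (A0.c (sq.getD j 0)) (A0.c y) ↔ tb (rows.getD j 0) y = true := fun j hj y hy => by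
    have a := A0.tr_spec (r j hj).1.1.1 hy
    have b := (A0.tr_spec (r j hj).1.1.1 (r j hj).1.1.2).2
    rw [← hg (lprod A0.e (nthW sv j))⁻¹, a.2, b, show tr A0.ap _ _ = 0 from (r j hj).1.2, h1, o1,
      A0.mem_seg (by decide +kernel) a.1, beq_iff_eq.mp (RAll.of (r j hj).2 y (Nat.zero_le _) hy), Bool.and_eq_true, nble_iff, Nat.blt_eq]
    rfl
  have k : ∀ j ≤ 31, ∀ x < 1782, ∀ y < 1782, (∀ i < j, A0.c y ≠ A0.c (sq.getD i 0) ∧
      (Δ.Adj (A0.c (sq.getD i 0)) (A0.c y) ↔ Δ.Adj (A0.c (sq.getD i 0)) (A0.c x))) → tb (cls (nm j) (rows.getD · 0) x j) y = true :=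
    fun j hj x hx y hy c => cls_spec (nm_spec hy fun i hi d => (c i hi).1 (congrArg _ d)) fun i hi =>
      Bool.eq_iff_iff.mpr ((e i (by omega) y hy).symm.trans ((c i hi).2.trans (e i (by omega) x hx)))
  refine (H9.R3.aut_le Δ.Adj A hA (fun j => A0.c (sq.getD j 0)) (ks.getD · 0) 31 (fun j hj i hi c =>
    (by decide +kernel : ∀ j < 31, ∀ i < j, sq.getD j 0 ≠ sq.getD i 0) j hj i hi
      (A0.inj _ (r j hj).1.1.2 _ (r i (by omega)).1.1.2 c)) (fun j hj => ?_) fun x y c => ?_).trans (by decide +kernel)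
  · refine le_trans ?_ (nble_iff.mp (allLt_iff.mp rc2 j hj))
    rw [← show _ = cntLt 1782 _ from ncard_tab A0 _ (O := {p | ∃ x < A0.n, tb (cls (nm j) (rows.getD · 0) (sq.getD j 0) j) x = true ∧ A0.c x = p})
      fun _ => Iff.rfl]
    refine Set.ncard_le_ncard fun p c => ?_
    obtain ⟨y, hy, rfl⟩ := fullX p
    exact ⟨y, hy, k j hj.le _ (r j hj).1.1.2 y hy c, rfl⟩
  · obtain ⟨x, hx, rfl⟩ := fullX x
    obtain ⟨y, hy, rfl⟩ := fullX y
    have a := rc3
    rw [frc_eq] at a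
    replace a := RAll.of a x (Nat.zero_le _) hx
    rw [nm_spec hx fun i hi d => (c i hi).1 (congrArg _ d), Bool.not_true, Bool.false_or, nbeq_iff] at a
    have b := k 31 le_rfl x hx y hy fun i hi => ⟨(c i hi).2.1, (c i hi).2.2.symm⟩
    rw [a, tb_eq, two, Nat.shiftLeft_eq', Nat.one_shiftLeft, Nat.testBit_two_pow, decide_eq_true_eq] at b
    rw [b]

end Cfsg.Agent.H15.R3
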